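import Cfsg.Agent.H126.PwO.Step
import Cfsg.Agent.LieClassical.OrthForms
import Cfsg.Agent.LieClassical.OrthFinite

/-!
# S2465: from `Ω(Q)` to `PΩ` (helper124, for helper126 and helper367)

* `all_of`                          : `All N (POmega F Q)` from the non-scalar elements of `Om Q`;
* `all_plus`, `all_minus`, `all_odd` : the three families of `Def_Classical`;
* `maxTS_plus`, `maxTS_minus`, `maxTS_odd` : the Witt indices;
* `base_plus`, `base_minus`, `base_odd` : the base corners of helper434;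
* `all_plus'`, `all_minus'`, `all_odd'` : the same, with the base corner as a hypothesis.
-/

set_option autoImplicit false
set_option linter.unusedSectionVars false

namespace Cfsg.Agent.H124.PwO

open Module QuadraticMap Cfsg.Agent.LieClassical.OrthCore Cfsg.Agent.LieClassical.OrthTrans
  Cfsg.Agent.LieClassical.OrthFinite Cfsg.Agent.LieClassical.OrthForms Cfsg.Agent.H140.OreO Cfsg.Agent.H126.PwO
open Cfsg.Agent.H78.Pw (Pr All)
open Cfsg.Agent.H434.Corn (MaxTS baseCorner TS)

section all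

variable {ι : Type} [Fintype ι] [DecidableEq ι] {F : Type*} [Field F]

/-- **From `Ω` to `PΩ`.** -/
theorem all_of (Q : QuadraticForm F (ι → F)) {N : ℕ}
    (H : ∀ g ∈ Om Q, (∀ c : F, ¬ ∀ v, g v = c • v) → PrO N Q g) : All N (Cfsg.POmega F ⇑Q) := by
  intro y
  obtain ⟨x, rfl⟩ := QuotientGroup.mk_surjective y
  by_cases hsc : ∃ c : F, ∀ v, (omegaEquiv Q x : (ι → F) ≃ₗ[F] (ι → F)) v = c • v
  · obtain ⟨c, hc⟩ := hsc
    have hx : x ∈ Subgroup.center (Cfsg.Omega F ⇑Q) := by
      rw [Subgroup.mem_center_iff]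
      intro z
      apply (omegaEquiv Q).injective
      rw [map_mul, map_mul]
      apply Subtype.ext
      apply LinearEquiv.ext
      intro v
      change (omegaEquiv Q z : (ι → F) ≃ₗ[F] (ι → F)) ((omegaEquiv Q x : (ι → F) ≃ₗ[F] (ι → F)) v) =
        (omegaEquiv Q x : (ι → F) ≃ₗ[F] (ι → F)) ((omegaEquiv Q z : (ι → F) ≃ₗ[F] (ι → F)) v)
      rw [hc, hc, map_smul]
    rw [(QuotientGroup.eq_one_iff x).2 hx]
    exact Pr.one N
  · have h1 : ∀ c : F, ¬ ∀ v, (omegaEquiv Q x : (ι → F) ≃ₗ[F] (ι → F)) v = c • v := fun c hc => hsc ⟨c, hc⟩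
    obtain ⟨a, ha, b, hb, s, t, e, hs, ht, has, hbt⟩ := H _ (omegaEquiv Q x).2 h1
    have e1 : x = (omegaEquiv Q).symm ⟨a, ha⟩ * (omegaEquiv Q).symm ⟨b, hb⟩ := by
      apply (omegaEquiv Q).injective
      rw [map_mul, MulEquiv.apply_symm_apply, MulEquiv.apply_symm_apply]
      exact Subtype.ext e
    have h2 : Pr N x := by
      refine Pr.mk e1 ?_ ?_
      · rw [MulEquiv.orderOf_eq, ← Subgroup.orderOf_coe]
        exact Nat.Coprime.of_dvd_left (orderOf_dvd_of_pow_eq_one has) hs
      · rw [MulEquiv.orderOf_eq, ← Subgroup.orderOf_coe]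
        exact Nat.Coprime.of_dvd_left (orderOf_dvd_of_pow_eq_one hbt) ht
    exact h2.map (QuotientGroup.mk' _)

end all

section plus

variable {F : Type*} [Field F] {m : ℕ}

theorem finrank_plus : finrank F (Fin m ⊕ Fin m → F) = 2 * m := by
  rw [finrank_fintype_fun_eq_card]; simp; ring

theorem all_plus {N : ℕ} (H : ∀ g ∈ Om (plusForm m F), (∀ c : F, ¬ ∀ v, g v = c • v) → PrO N (plusForm m F) g) :
    All N (Cfsg.POmega F (Cfsg.quadFormPlus m F)) := by
  have h := all_of (plusForm m F) H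
  rwa [coe_plusForm] at h

/-- the standard totally singular subspace -/
def inclP (m : ℕ) (F : Type*) [Field F] : (Fin m → F) →ₗ[F] (Fin m ⊕ Fin m → F) where
  toFun u := Sum.elim u 0
  map_add' u v := by ext i; rcases i with i | i <;> simp
  map_smul' c v := by ext i; rcases i with i | i <;> simp

theorem inclP_injective : Function.Injective (inclP m F) := by
  intro u v h
  funext i
  exact congrFun h (Sum.inl i)

theorem maxTS_range_plus : MaxTS (plusForm m F) (LinearMap.range (inclP m F)) where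
  ts := by
    rintro _ ⟨u, rfl⟩
    rw [coe_plusForm, quadFormPlus_apply]
    exact Finset.sum_eq_zero fun i _ => by simp [inclP]
  max := by
    intro x _ hp
    refine ⟨fun i => x (Sum.inl i), ?_⟩
    funext i
    rcases i with i | i
    · rfl
    · classical
      have h1 := hp _ ⟨Pi.single i 1, rfl⟩
      rw [polar_plusForm] at h1
      have h2 : ∑ j : Fin m, ((inclP m F (Pi.single i 1)) (Sum.inl j) * x (Sum.inr j) +
          x (Sum.inl j) * (inclP m F (Pi.single i 1)) (Sum.inr j)) = x (Sum.inr i) := by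
        simp [inclP, Pi.single_apply]
      rw [h2] at h1
      exact h1.symm

theorem maxTS_plus {W : Submodule F (Fin m ⊕ Fin m → F)} (hW : MaxTS (plusForm m F) W) : finrank F W = m := by
  rw [maxTS_range_plus.finrank_eq hW, LinearMap.finrank_range_of_inj inclP_injective]
  simp

theorem base_plus [Finite F] (hm : 3 ≤ m) {g : (Fin m ⊕ Fin m → F) ≃ₗ[F] (Fin m ⊕ Fin m → F)}
    (hg : g ∈ Om (plusForm m F)) (hs : ∀ c : F, ¬ ∀ v, g v = c • v) : BaseCorner m (plusForm m F) g :=
  baseCorner (nondeg_plusForm m F) hg (fun c => not_forall.1 (hs c)) hm fun _ hW => maxTS_plus hW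

theorem all_plus' [Finite F] {N : ℕ} (hm : 3 ≤ m) (H : ∀ g ∈ Om (plusForm m F), (∀ c : F, ¬ ∀ v, g v = c • v) →
    BaseCorner m (plusForm m F) g → PrO N (plusForm m F) g) : All N (Cfsg.POmega F (Cfsg.quadFormPlus m F)) :=
  all_plus fun g hg hs => H g hg hs (base_plus hm hg hs)

end plus

section minus

variable {F : Type*} [Field F] {m : ℕ} {a b : F}

theorem finrank_minus : finrank F ((Fin m ⊕ Fin m) ⊕ Fin 2 → F) = 2 * m + 2 := by
  rw [finrank_fintype_fun_eq_card]; simp; ring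

theorem all_minus {N : ℕ} (H : ∀ g ∈ Om (minusForm m F a b), (∀ c : F, ¬ ∀ v, g v = c • v) →
    PrO N (minusForm m F a b) g) : All N (Cfsg.POmega F (Cfsg.quadFormMinus m F a b)) := by
  have h := all_of (minusForm m F a b) H
  rwa [coe_minusForm] at h

/-- the standard totally singular subspace -/
def inclM (m : ℕ) (F : Type*) [Field F] : (Fin m → F) →ₗ[F] ((Fin m ⊕ Fin m) ⊕ Fin 2 → F) where
  toFun u := Sum.elim (Sum.elim u 0) 0
  map_add' u v := by ext i; rcases i with (i | i) | i <;> simp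
  map_smul' c v := by ext i; rcases i with (i | i) | i <;> simp

theorem inclM_injective : Function.Injective (inclM m F) := by
  intro u v h
  funext i
  exact congrFun h (Sum.inl (Sum.inl i))

theorem maxTS_range_minus (hab : ∀ z₁ z₂ : F, z₁ ^ 2 + a * z₁ * z₂ + b * z₂ ^ 2 = 0 → z₁ = 0 ∧ z₂ = 0) :
    MaxTS (minusForm m F a b) (LinearMap.range (inclM m F)) where
  ts := by
    rintro _ ⟨u, rfl⟩
    rw [coe_minusForm, quadFormMinus_apply]
    simp [inclM]
  max := by
    intro x hx hp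
    have h0 : ∀ i, x (Sum.inl (Sum.inr i)) = 0 := by
      intro i
      classical
      have h1 := hp _ ⟨Pi.single i 1, rfl⟩
      rw [polar_minusForm] at h1
      have h2 : (∑ j : Fin m, ((inclM m F (Pi.single i 1)) (Sum.inl (Sum.inl j)) * x (Sum.inl (Sum.inr j)) +
          x (Sum.inl (Sum.inl j)) * (inclM m F (Pi.single i 1)) (Sum.inl (Sum.inr j)))) +
          (2 * (inclM m F (Pi.single i 1)) (Sum.inr 0) * x (Sum.inr 0) +
            a * ((inclM m F (Pi.single i 1)) (Sum.inr 0) * x (Sum.inr 1) +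
              (inclM m F (Pi.single i 1)) (Sum.inr 1) * x (Sum.inr 0)) +
            2 * b * (inclM m F (Pi.single i 1)) (Sum.inr 1) * x (Sum.inr 1)) = x (Sum.inl (Sum.inr i)) := by
        simp [inclM, Pi.single_apply]
      rw [h2] at h1
      exact h1
    rw [coe_minusForm, quadFormMinus_apply] at hx
    have h1 : ∑ i : Fin m, x (Sum.inl (Sum.inl i)) * x (Sum.inl (Sum.inr i)) = 0 :=
      Finset.sum_eq_zero fun i _ => by rw [h0, mul_zero]
    rw [h1, zero_add] at hx
    obtain ⟨h2, h3⟩ := hab _ _ hx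
    refine ⟨fun i => x (Sum.inl (Sum.inl i)), ?_⟩
    funext i
    rcases i with (i | i) | i
    · rfl
    · exact (h0 i).symm
    · fin_cases i
      · exact h2.symm
      · exact h3.symm

theorem maxTS_minus (hab : ∀ z₁ z₂ : F, z₁ ^ 2 + a * z₁ * z₂ + b * z₂ ^ 2 = 0 → z₁ = 0 ∧ z₂ = 0)
    {W : Submodule F ((Fin m ⊕ Fin m) ⊕ Fin 2 → F)} (hW : MaxTS (minusForm m F a b) W) : finrank F W = m := by
  rw [(maxTS_range_minus hab).finrank_eq hW, LinearMap.finrank_range_of_inj inclM_injective]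
  simp

theorem base_minus [Finite F] (hm : 3 ≤ m)
    (hab : ∀ z₁ z₂ : F, z₁ ^ 2 + a * z₁ * z₂ + b * z₂ ^ 2 = 0 → z₁ = 0 ∧ z₂ = 0)
    {g : ((Fin m ⊕ Fin m) ⊕ Fin 2 → F) ≃ₗ[F] ((Fin m ⊕ Fin m) ⊕ Fin 2 → F)}
    (hg : g ∈ Om (minusForm m F a b)) (hs : ∀ c : F, ¬ ∀ v, g v = c • v) : BaseCorner m (minusForm m F a b) g :=
  baseCorner (nondeg_minusForm m F a b hab) hg (fun c => not_forall.1 (hs c)) hm fun _ hW => maxTS_minus hab hW

theorem all_minus' [Finite F] {N : ℕ} (hm : 3 ≤ m)
    (hab : ∀ z₁ z₂ : F, z₁ ^ 2 + a * z₁ * z₂ + b * z₂ ^ 2 = 0 → z₁ = 0 ∧ z₂ = 0)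
    (H : ∀ g ∈ Om (minusForm m F a b), (∀ c : F, ¬ ∀ v, g v = c • v) →
      BaseCorner m (minusForm m F a b) g → PrO N (minusForm m F a b) g) :
    All N (Cfsg.POmega F (Cfsg.quadFormMinus m F a b)) :=
  all_minus fun g hg hs => H g hg hs (base_minus hm hab hg hs)

end minus

section odd

variable {F : Type*} [Field F] {m : ℕ}

theorem finrank_odd : finrank F (Unit ⊕ (Fin m ⊕ Fin m) → F) = 2 * m + 1 := by
  rw [finrank_fintype_fun_eq_card]; simp; ring

theorem all_odd {N : ℕ} (H : ∀ g ∈ Om (oddForm m F), (∀ c : F, ¬ ∀ v, g v = c • v) → PrO N (oddForm m F) g) :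
    All N (Cfsg.POmega F (Cfsg.quadFormOdd m F)) := by
  have h := all_of (oddForm m F) H
  rwa [coe_oddForm] at h

/-- the standard totally singular subspace -/
def inclO (m : ℕ) (F : Type*) [Field F] : (Fin m → F) →ₗ[F] (Unit ⊕ (Fin m ⊕ Fin m) → F) where
  toFun u := Sum.elim 0 (Sum.elim u 0)
  map_add' u v := by ext i; rcases i with i | (i | i) <;> simp
  map_smul' c v := by ext i; rcases i with i | (i | i) <;> simp

theorem inclO_injective : Function.Injective (inclO m F) := by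
  intro u v h
  funext i
  exact congrFun h (Sum.inr (Sum.inl i))

theorem maxTS_range_odd : MaxTS (oddForm m F) (LinearMap.range (inclO m F)) where
  ts := by
    rintro _ ⟨u, rfl⟩
    rw [coe_oddForm, quadFormOdd_apply]
    simp [inclO]
  max := by
    intro x hx hp
    have h0 : ∀ i, x (Sum.inr (Sum.inr i)) = 0 := by
      intro i
      classical
      have h1 := hp _ ⟨Pi.single i 1, rfl⟩
      rw [polar_oddForm] at h1
      simpa [inclO, Pi.single_apply] using h1
    rw [coe_oddForm, quadFormOdd_apply] at hx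
    have h1 : ∑ i : Fin m, x (Sum.inr (Sum.inl i)) * x (Sum.inr (Sum.inr i)) = 0 :=
      Finset.sum_eq_zero fun i _ => by rw [h0, mul_zero]
    rw [h1, add_zero] at hx
    have h2 : x (Sum.inl ()) = 0 := by simpa using hx
    refine ⟨fun i => x (Sum.inr (Sum.inl i)), ?_⟩
    funext i
    rcases i with i | (i | i)
    · exact h2.symm
    · rfl
    · exact (h0 i).symm

theorem maxTS_odd {W : Submodule F (Unit ⊕ (Fin m ⊕ Fin m) → F)} (hW : MaxTS (oddForm m F) W) : finrank F W = m := by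
  rw [maxTS_range_odd.finrank_eq hW, LinearMap.finrank_range_of_inj inclO_injective]
  simp

theorem base_odd [Finite F] (h2 : (2 : F) ≠ 0) (hm : 3 ≤ m)
    {g : (Unit ⊕ (Fin m ⊕ Fin m) → F) ≃ₗ[F] (Unit ⊕ (Fin m ⊕ Fin m) → F)}
    (hg : g ∈ Om (oddForm m F)) (hs : ∀ c : F, ¬ ∀ v, g v = c • v) : BaseCorner m (oddForm m F) g :=
  baseCorner (nondeg_oddForm m F h2) hg (fun c => not_forall.1 (hs c)) hm fun _ hW => maxTS_odd hW

theorem all_odd' [Finite F] {N : ℕ} (h2 : (2 : F) ≠ 0) (hm : 3 ≤ m)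
    (H : ∀ g ∈ Om (oddForm m F), (∀ c : F, ¬ ∀ v, g v = c • v) →
      BaseCorner m (oddForm m F) g → PrO N (oddForm m F) g) : All N (Cfsg.POmega F (Cfsg.quadFormOdd m F)) :=
  all_odd fun g hg hs => H g hg hs (base_odd h2 hm hg hs)

end odd

end Cfsg.Agent.H124.PwO
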