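import Cfsg.Agent.H124.PwO.Glue
import Cfsg.Agent.H126.PwO.Nu

/-!
# S2465: `PΩ⁻` (helper124)

* `own_minus` : `N = r ≥ 5`, every `m ≥ 4`: the hypothesis `hown` of `H346.PwU.row_pom`;
* `six_minus_of` : `hsix` from the fields with 2, 3, 4, 9 elements and `PΩ₈⁻(8)`.
-/

set_option autoImplicit false
set_option linter.unusedSectionVars false
set_option linter.unusedVariables false

namespace Cfsg.Agent.H124.PwO

open Module QuadraticMap Matrix Cfsg.Agent.LieClassical.OrthCore Cfsg.Agent.LieClassical.OrthTrans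
  Cfsg.Agent.LieClassical.OrthFinite Cfsg.Agent.LieClassical.OrthForms Cfsg.Agent.H140.OreO Cfsg.Agent.H126.PwO
open Cfsg.Agent.H78.Pw (Pr All)

theorem own_minus (F : Type) [Field F] [Fintype F] (r : ℕ) [hr : Fact r.Prime] [CharP F r] (m : ℕ) (a b : F) (h5 : 5 ≤ r)
    (hm : 4 ≤ m) (hab : ∀ z₁ z₂ : F, z₁ ^ 2 + a * z₁ * z₂ + b * z₂ ^ 2 = 0 → z₁ = 0 ∧ z₂ = 0) :
    All r (Cfsg.POmega F (Cfsg.quadFormMinus (m - 1) F a b)) := by
  obtain ⟨k, hp, hk⟩ := FiniteField.card F r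
  have hrF : r ∣ Nat.card F := by
    rw [Nat.card_eq_fintype_card, hk]
    exact dvd_pow_self r k.ne_zero
  have hq : 4 ≤ Nat.card F := by
    have := Nat.le_of_dvd Nat.card_pos hrF
    omega
  obtain ⟨j, hj⟩ : ∃ j, m - 1 = j + 2 := ⟨m - 3, by omega⟩
  rw [hj]
  refine all_minus' (by omega) hab fun g hg _ hB => ?_
  have hfin : finrank F ((Fin (j + 2) ⊕ Fin (j + 2)) ⊕ Fin 2 → F) = 2 * (j + 2) + 2 := finrank_minus
  obtain ⟨w, w', hfr, hS, hdet, hA⟩ := hB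
  exact prO_own (by omega) (nondeg_minusForm _ F a b hab) hfr (Om_le hg) hS hdet (hA.imp id fun h => h.1) (by omega) hrF hq

/-- the remaining fields -/
def Rest (F : Type) [Field F] [Fintype F] (m : ℕ) : Prop :=
  Fintype.card F = 2 ∨ Fintype.card F = 3 ∨ Fintype.card F = 4 ∨ Fintype.card F = 9 ∨ (Fintype.card F = 8 ∧ m = 4)

theorem six_minus_of (H : ∀ (F : Type) [Field F] [Fintype F] (m : ℕ) (a b : F), 4 ≤ m → Rest F m →
      (∀ z₁ z₂ : F, z₁ ^ 2 + a * z₁ * z₂ + b * z₂ ^ 2 = 0 → z₁ = 0 ∧ z₂ = 0) →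
      All 6 (Cfsg.POmega F (Cfsg.quadFormMinus (m - 1) F a b)))
    (F : Type) [Field F] [Fintype F] (r : ℕ) [hr : Fact r.Prime] [CharP F r] (m : ℕ) (a b : F) (h5 : r < 5)
    (hm : 4 ≤ m) (hab : ∀ z₁ z₂ : F, z₁ ^ 2 + a * z₁ * z₂ + b * z₂ ^ 2 = 0 → z₁ = 0 ∧ z₂ = 0) :
    All 6 (Cfsg.POmega F (Cfsg.quadFormMinus (m - 1) F a b)) := by
  obtain ⟨e, hp, he⟩ := FiniteField.card F r
  have hr2 := hp.two_le
  have hr4 : r ≠ 4 := by rintro rfl; revert hp; decide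
  by_cases hrest : Rest F m
  · exact H F m a b hm hrest hab
  · have he3 : 3 ≤ (e : ℕ) := by
      by_contra hcon
      have he1 := e.pos
      have he12 : (e : ℕ) = 1 ∨ (e : ℕ) = 2 := by omega
      have hr23 : r = 2 ∨ r = 3 := by omega
      apply hrest
      rw [Rest, he]
      rcases hr23 with rfl | rfl <;> rcases he12 with h | h <;> rw [h] <;> norm_num
    obtain ⟨j, hj⟩ : ∃ j, m - 1 = j + 2 := ⟨m - 3, by omega⟩
    rw [hj]
    refine all_minus' (by omega) hab fun g hg _ hB => ?_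
    have hfin : finrank F ((Fin (j + 2) ⊕ Fin (j + 2)) ⊕ Fin 2 → F) = 2 * (j + 2) + 2 := finrank_minus
    obtain ⟨w, w', hfr, hS, hdet, hA⟩ := hB
    refine prO_six (r := r) (e := e) (by omega) (nondeg_minusForm _ F a b hab) hfr (Om_le hg) hS hdet
      (hA.imp id fun h => h.1) (by omega) hr2 he3 (by rw [Nat.card_eq_fintype_card, he]) ?_
    rintro ⟨h8, h1⟩
    rw [Nat.card_eq_fintype_card] at h8
    exact hrest (Or.inr (Or.inr (Or.inr (Or.inr ⟨h8, by omega⟩))))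

end Cfsg.Agent.H124.PwO
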