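import Cfsg.Agent.H124.PwO.Glue
import Cfsg.Agent.H126.PwO.Plus
import Cfsg.Agent.H126.PwO.Gen
import Cfsg.Agent.H367.PO.Odd
import Cfsg.Agent.H934.MF.TwoS
import Cfsg.Agent.H934.MF.TwoT7

/-!
# S2465: `PΩ⁺`, every `q`, every `m ≥ 4` (helper124)

A corner of size `m` without middle space.  `(X - 1) f` with `f` of norm one and degree `m - 1`, or (`q = 2`, `m = 5, 7` and
`q = 3`, `m = 5`) two irreducible matrices.
-/

set_option autoImplicit false
set_option linter.unusedSectionVars false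

namespace Cfsg.Agent.H124.PwO

open Module QuadraticMap Matrix Polynomial Cfsg.Agent.LieClassical.OrthCore Cfsg.Agent.LieClassical.OrthTrans
  Cfsg.Agent.LieClassical.OrthFinite Cfsg.Agent.LieClassical.OrthForms Cfsg.Agent.H140.OreO Cfsg.Agent.H126.PwO
open Cfsg.Agent.H78.Pw (Pr All)

variable {F V : Type*} [Field F] [AddCommGroup V] [Module F V] {m : ℕ} {Q : QuadraticForm F V}

theorem subsingleton_perp [FiniteDimensional F V] (hd : finrank F V = 2 * m) {w w' : Fin m → V} (hf : Frame Q w w') :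
    Subsingleton (perp Q w w') := by
  have h := hf.finrank_perp
  have h1 : finrank F (perp Q w w') = 0 := by omega
  exact finrank_zero_iff.1 h1

/-- `(X - 1) f` -/
theorem prO_fix [Finite F] [FiniteDimensional F V] {N k s : ℕ} (hk : 1 ≤ k) (hd : finrank F V = 2 * (k + 2)) (hQ : Nondeg Q)
    {g : V ≃ₗ[F] V} (hg : g ∈ O Q) (hB : BaseCorner (k + 2) Q g) {f : F[X]} (hf : One (k + 1) s f) (hs : s.Coprime N) :
    PrO N Q g := by
  obtain ⟨w, w', hfr, hS, hdet, hA⟩ := hB
  have hss := subsingleton_perp hd hfr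
  have hpm : ((X - C 1) * f).Monic := (monic_X_sub_C 1).mul hf.monic
  have hpd : ((X - C 1) * f).natDegree = k + 2 := by
    rw [(monic_X_sub_C 1).natDegree_mul hf.monic, natDegree_X_sub_C, hf.deg]; omega
  have hp0 : (-1) ^ (k + 2) * ((X - C 1) * f).coeff 0 = 1 := by
    rw [mul_coeff_zero, coeff_sub, coeff_X_zero, coeff_C_zero, zero_sub]
    have := hf.norm
    linear_combination this
  have hC : ∀ x : perp Q w w' ≃ₗ[F] perp Q w w', CopP (k + 2) ((X - C 1) * f) x := by
    intro x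
    have := copP_of_fix (m := k + 2) (h := x) (hf.eval (by omega) 1) hf.cop (un_subsingleton _ _) (un_subsingleton _ _)
    rwa [C_1]
  exact prO_pol (by omega) hQ hfr hg hS hdet (hA.imp id fun h => h.1) hpm hpd hp0 hf.monic hf.deg
    (by rw [mul_one]; exact hf.norm) (x := 1) (O _).one_mem (hC _) (hC _) odd_one (one_pow 1) hs hs (hf.dvd' (by omega))
    (hf.dvd' (by omega)) (one_pow s) (one_pow s)

/-- irreducible polynomials of odd degree are not self-reciprocal -/
theorem cop_rev_odd {p : F[X]} (hm : p.Monic) (hp : Irreducible p) (hd : 2 ≤ p.natDegree)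
    (ho : Odd p.natDegree) : IsCoprime p p.reverse := by
  by_cases h2 : (2 : F) = 0
  · rw [hp.coprime_iff_not_dvd]
    intro h
    have h0 : p.coeff 0 ≠ 0 := coeff_zero_ne hp hd
    have h1 := Polynomial.eq_mul_leadingCoeff_of_monic_of_dvd_of_natDegree_le hm h (natDegree_rev h0).le
    have hev : ∀ x : F, p.eval x ≠ 0 := fun x => eval_ne_zero hp hd x
    have e1 : p.reverse.leadingCoeff = 1 := by
      have := congrArg (eval 1) h1
      rw [Cfsg.Agent.H367.PO.eval_rev_one, eval_mul, eval_C] at this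
      exact (mul_left_cancel₀ (hev 1) (by rw [mul_one, ← this])).symm
    rw [e1, C_1, mul_one] at h1
    apply hev 1
    rw [eval_eq_sum_range]
    refine Finset.sum_involution (fun i _ => p.natDegree - i) ?_ ?_ ?_ ?_
    · intro i hi
      have hi' : i ≤ p.natDegree := by rw [Finset.mem_range] at hi; omega
      have e2 : p.coeff i = p.coeff (p.natDegree - i) := by
        conv_lhs => rw [← h1]
        rw [coeff_reverse, revAt_le hi']
      rw [one_pow, one_pow, mul_one, mul_one, ← e2]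
      linear_combination p.coeff i * h2
    · intro i hi _ h3
      have hi' : i ≤ p.natDegree := by rw [Finset.mem_range] at hi; omega
      obtain ⟨c, hc⟩ := ho
      omega
    · intro i hi
      rw [Finset.mem_range] at hi ⊢
      omega
    · intro i hi
      rw [Finset.mem_range] at hi
      omega
  · exact Cfsg.Agent.H367.PO.cop_rev_odd h2 hm hp hd ho

/-- two irreducible matrices, `q = 2` -/
theorem prO_irr_two [Finite F] [FiniteDimensional F V] (hF : Nat.card F = 2) (hm : 3 ≤ m) (ho : Odd m)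
    (hd : finrank F V = 2 * m) (hQ : Nondeg Q) {g : V ≃ₗ[F] V} (hg : g ∈ O Q) (hB : BaseCorner m Q g)
    (h6 : (∑ i : Fin m, 2 ^ (i : ℕ)).Coprime 6)
    (H : ∀ A : Matrix (Fin m) (Fin m) F, A.det = 1 → A ≠ 1 → ∃ X Y : Matrix (Fin m) (Fin m) F, A = X * Y ∧
      Irreducible X.charpoly ∧ Irreducible Y.charpoly) : PrO 6 Q g := by
  obtain ⟨w, w', hfr, hS, hdet, hA⟩ := hB
  have hss := subsingleton_perp hd hfr
  have hdt : ∀ X : Matrix (Fin m) (Fin m) F, Irreducible X.charpoly → X.det = 1 := by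
    intro X hX
    have h0 : X.det ≠ 0 := by
      rw [det_eq_sign_charpoly_coeff]
      refine mul_ne_zero (pow_ne_zero _ (neg_ne_zero.2 one_ne_zero)) (coeff_zero_ne hX ?_)
      rw [charpoly_natDegree_eq_dim, Fintype.card_fin]; omega
    have hfin := Fintype.ofFinite F
    have h1 := FiniteField.pow_card_sub_one_eq_one X.det h0
    rwa [← Nat.card_eq_fintype_card, hF, pow_one] at h1
  have hpow : ∀ X : Matrix (Fin m) (Fin m) F, Irreducible X.charpoly → X ^ ∑ i : Fin m, 2 ^ (i : ℕ) = 1 := by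
    intro X hX
    have := Cfsg.Agent.H367.PO.pow_of_irr hX (hdt X hX)
    rwa [hF] at this
  have hC : ∀ (X : Matrix (Fin m) (Fin m) F), Irreducible X.charpoly → CopP m X.charpoly (1 : perp Q w w' ≃ₗ[F] perp Q w w') := by
    intro X hX
    have hdeg : X.charpoly.natDegree = m := by rw [charpoly_natDegree_eq_dim, Fintype.card_fin]
    exact copP_of_cop (un_subsingleton _ _) (un_subsingleton _ _)
      (cop_rev_odd (charpoly_monic X) hX (by rw [hdeg]; omega) (by rw [hdeg]; exact ho))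
  by_cases h1 : corner Q g w w' = 1
  · obtain ⟨p, s, hp, -⟩ := exists_one F hm ho
    obtain ⟨X, hX⟩ := exists_matrix p hp.monic (coeff_zero_ne hp.irr (by rw [hp.deg]; omega)) hp.deg
    have hXi : Irreducible (X : Matrix (Fin m) (Fin m) F).charpoly := by rw [hX]; exact hp.irr
    have hX1 : X ^ ∑ i : Fin m, 2 ^ (i : ℕ) = 1 :=
      Units.ext (by rw [Units.val_pow_eq_pow_val, hpow _ hXi, Units.val_one])
    have hdi : ((X⁻¹ : GL (Fin m) F) : Matrix (Fin m) (Fin m) F).det = 1 := by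
      have h3 : ((X * X⁻¹ : GL (Fin m) F) : Matrix (Fin m) (Fin m) F).det = 1 := by
        rw [mul_inv_cancel, Units.val_one, det_one]
      rwa [Units.val_mul, det_mul, hdt _ hXi, one_mul] at h3
    refine prO_of_corner (Y := X⁻¹) (x := 1) (k := 1) (s := ∑ i : Fin m, 2 ^ (i : ℕ)) (t := ∑ i : Fin m, 2 ^ (i : ℕ))
      (by omega) hQ hfr hg hS ?_ (O _).one_mem (hC _ hXi X rfl) ?_ (hdt _ hXi) hdi odd_one (one_pow 1) h6 h6 hX1 (one_pow _)
      (by rw [inv_pow, hX1, inv_one]) (one_pow _)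
    · rw [mul_inv_cancel, Units.val_one, h1]
    · exact Cfsg.Agent.H126.PwO.Cop.inv (hC _ hXi X rfl)
  · obtain ⟨X, Y, hXY, hX, hY⟩ := H _ hdet h1
    exact prO_mat (by omega) hQ hfr hg hS hXY (hdt X hX) (hdt Y hY) (hC X hX) (hC Y hY) h6 h6 (hpow X hX) (hpow Y hY)

/-- transport from `ZMod 2` -/
theorem of_zmod [Finite F] (hF : Nat.card F = 2) {P : (ZMod 2)[X]} (hP : Irreducible P)
    (H : ∀ A : Matrix (Fin m) (Fin m) (ZMod 2), A.det ≠ 0 → A ≠ 1 → ∃ X Y : Matrix (Fin m) (Fin m) (ZMod 2), A = X * Y ∧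
      X.charpoly = P ∧ Y.charpoly = P) (A : Matrix (Fin m) (Fin m) F) (hA : A.det = 1) (h1 : A ≠ 1) :
    ∃ X Y : Matrix (Fin m) (Fin m) F, A = X * Y ∧ Irreducible X.charpoly ∧ Irreducible Y.charpoly := by
  have hfin := Fintype.ofFinite F
  have : Fact (Nat.Prime 2) := ⟨Nat.prime_two⟩
  let e : ZMod 2 ≃+* F := ZMod.ringEquivOfPrime F Nat.prime_two (by rw [← Nat.card_eq_fintype_card, hF])
  obtain ⟨X, Y, hXY, hX, hY⟩ := H (e.symm.mapMatrix A) (by
    rw [← RingEquiv.map_det, hA, map_one]; exact one_ne_zero) (by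
    intro h
    apply h1
    apply e.symm.mapMatrix.injective
    rw [h, map_one])
  have hirr : ∀ Z : Matrix (Fin m) (Fin m) (ZMod 2), Z.charpoly = P → Irreducible (e.mapMatrix Z).charpoly := by
    intro Z hZ
    have h3 : (e.mapMatrix Z).charpoly = (Polynomial.mapEquiv e) Z.charpoly := by
      have := Matrix.charpoly_map Z (e : ZMod 2 →+* F)
      exact this
    rw [h3, hZ]
    exact (MulEquiv.irreducible_iff (Polynomial.mapEquiv e)).2 hP
  refine ⟨e.mapMatrix X, e.mapMatrix Y, ?_, hirr X hX, hirr Y hY⟩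
  rw [← map_mul, ← hXY]
  ext i j
  exact (e.apply_symm_apply _).symm

/-- **`N = 6`** -/
theorem prO_plus_six [Finite F] [FiniteDimensional F V] {r e : ℕ} (hr : r = 2 ∨ r = 3) (hq : Nat.card F = r ^ e)
    (hm : 4 ≤ m) (hd : finrank F V = 2 * m) (hQ : Nondeg Q) {g : V ≃ₗ[F] V} (hg : g ∈ O Q) (hB : BaseCorner m Q g) :
    PrO 6 Q g := by
  have hq1 : 1 < Nat.card F := Finite.one_lt_card
  obtain ⟨k, rfl⟩ : ∃ k, m = k + 2 := ⟨m - 2, by omega⟩
  rcases Nat.even_or_odd k with hk | hk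
  · obtain ⟨f, s, hf, hs⟩ := exists_one F (d := k + 1) (by omega) hk.add_one
    exact prO_fix (by omega) hd hQ hg hB hf hs
  by_cases he3 : 3 ≤ e
  · obtain ⟨w, w', hfr, hS, hdet, hA⟩ := hB
    refine prO_six (r := r) (e := e) (by omega) hQ hfr hg hS hdet (hA.imp id fun h => h.1) (by omega) (by omega) he3 hq ?_
    omega
  have hcard : Nat.card F = 2 ∨ Nat.card F = 3 ∨ Nat.card F = 4 ∨ Nat.card F = 9 := by
    have he0 : e ≠ 0 := by rintro rfl; rw [pow_zero] at hq; omega
    have he12 : e = 1 ∨ e = 2 := by omega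
    rcases hr with rfl | rfl <;> rcases he12 with rfl | rfl <;> rw [hq] <;> norm_num
  obtain ⟨c, hc⟩ := hk
  by_cases h5 : k = 3
  · subst h5
    rcases hcard with h | h | h | h
    · refine prO_irr_two h (by norm_num) (by decide) hd hQ hg hB (by decide) fun A hA h1 =>
        of_zmod h H934.MF.irrFive (fun A hA h1 => H934.MF.prodFive A hA h1) A hA h1
    · exact Cfsg.Agent.H367.PO.prO_five_three h hQ (by omega) hg hB
    · obtain ⟨f, s, hf, hs⟩ := exists_four F (Or.inl h)
      exact prO_fix (by omega) hd hQ hg hB hf hs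
    · obtain ⟨f, s, hf, hs⟩ := exists_four F (Or.inr h)
      exact prO_fix (by omega) hd hQ hg hB hf hs
  · by_cases h7 : Nat.card F = 2 ∧ k = 5
    · obtain ⟨h, rfl⟩ := h7
      refine prO_irr_two h (by norm_num) (by decide) hd hQ hg hB (by decide) fun A hA h1 =>
        of_zmod h H934.MF.irrSeven (fun A hA h1 => H934.MF.prodSeven A hA h1) A hA h1
    · obtain ⟨f, s, hf, hs⟩ := exists_two' F (e := c + 1) (by omega) (by omega)
      rw [show 2 * (c + 1) = k + 1 by omega] at hf
      exact prO_fix (by omega) hd hQ hg hB hf hs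

/-- **`N = r ≥ 5`** -/
theorem prO_plus_own [Finite F] [FiniteDimensional F V] {r : ℕ} (hr : r ∣ Nat.card F) (hq : 4 ≤ Nat.card F)
    (hm : 4 ≤ m) (hd : finrank F V = 2 * m) (hQ : Nondeg Q) {g : V ≃ₗ[F] V} (hg : g ∈ O Q) (hB : BaseCorner m Q g) :
    PrO r Q g := by
  obtain ⟨k, rfl⟩ : ∃ k, m = k + 2 := ⟨m - 2, by omega⟩
  obtain ⟨w, w', hfr, hS, hdet, hA⟩ := hB
  exact prO_own (by omega) hQ hfr hg hS hdet (hA.imp id fun h => h.1) (by omega) hr hq

/-! ### the hypotheses of `H346.PwU.row_pop` -/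

theorem own_plus (F : Type) [Field F] [Fintype F] (r : ℕ) [hr : Fact r.Prime] [CharP F r] (m : ℕ) (h5 : 5 ≤ r)
    (hm : 4 ≤ m) : All r (Cfsg.POmega F (Cfsg.quadFormPlus m F)) := by
  obtain ⟨k, hp, hk⟩ := FiniteField.card F r
  have hrF : r ∣ Nat.card F := by
    rw [Nat.card_eq_fintype_card, hk]
    exact dvd_pow_self r k.ne_zero
  have hq : 4 ≤ Nat.card F := by
    have := Nat.le_of_dvd Nat.card_pos hrF
    omega
  exact all_plus' (by omega) fun g hg _ hB =>
    prO_plus_own hrF hq hm finrank_plus (nondeg_plusForm m F) (Om_le hg) hB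

theorem six_plus (F : Type) [Field F] [Fintype F] (r : ℕ) [hr : Fact r.Prime] [CharP F r] (m : ℕ) (h5 : r < 5)
    (hm : 4 ≤ m) : All 6 (Cfsg.POmega F (Cfsg.quadFormPlus m F)) := by
  obtain ⟨k, hp, hk⟩ := FiniteField.card F r
  have hr2 := hp.two_le
  have hr4 : r ≠ 4 := by rintro rfl; revert hp; decide
  exact all_plus' (by omega) fun g hg _ hB =>
    prO_plus_six (r := r) (e := k) (by omega) (by rw [Nat.card_eq_fintype_card, hk]) hm finrank_plus
      (nondeg_plusForm m F) (Om_le hg) hB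

end Cfsg.Agent.H124.PwO
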